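import Mathlib
import Cfsg.Agent.KFI.Defs
import Cfsg.Prelude.Def_Classification2
import Cfsg.Agent.KFI.CoreC
import Cfsg.Agent.KFI.LayCA

/-! # Layers of involution centralizers in sporadic groups, cluster C -/

set_option autoImplicit false

namespace Cfsg.Agent.KFI

open Cfsg Subgroup Cfsg.Agent.Spor Cfsg.Agent.Spor.Leech Cfsg.Agent.Spor.CZ Cfsg.Agent.Spor.MX

theorem SpC.co1_lay (s : Spor.Co1) (hs : orderOf s = 2) :
    layer (centralizer ({s} : Set Spor.Co1)) = ⊥ ∨ Lay 1 (centralizer ({s} : Set Spor.Co1)) := by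
  obtain ⟨a, rfl⟩ := co1_surj s
  rcases co1_eq_one.1 (show co1Pi (a * a) = 1 by rw [map_mul, ← sq, ← hs, pow_orderOf_eq_one]) with e | e
  · exact Or.inl (charP_iff.1 (SpC.charP_sq e fun h => by simp [h] at hs)).1
  · exact SpC.lay_j e

variable {G : Type*} [Group G] [Finite G] [IsSimpleGroup G]

set_option linter.unusedSectionVars false

theorem lay_HS (h : Spor.IsoHS G) (t : G) (ht : orderOf t = 2) :
    layer (centralizer ({t} : Set G)) = ⊥ ∨ Lay 1 (centralizer ({t} : Set G)) := (spOK_HS h t ht).2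

theorem lay_Co3 (h : Spor.IsoCo3 G) (t : G) (ht : orderOf t = 2) :
    layer (centralizer ({t} : Set G)) = ⊥ ∨ Lay 1 (centralizer ({t} : Set G)) := (spOK_Co3 h t ht).2

theorem lay_Co2 (h : Spor.IsoCo2 G) (t : G) (ht : orderOf t = 2) :
    layer (centralizer ({t} : Set G)) = ⊥ ∨ Lay 1 (centralizer ({t} : Set G)) := (spOK_Co2 h t ht).2

theorem lay_Co1 (h : Spor.IsoCo1 G) (t : G) (ht : orderOf t = 2) :
    layer (centralizer ({t} : Set G)) = ⊥ ∨ Lay 1 (centralizer ({t} : Set G)) :=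
  h.elim fun e => (spOK_transport e (fun s hs => ⟨SpC.co1_core s hs, SpC.co1_lay s hs⟩) t ht).2

end Cfsg.Agent.KFI
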